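import Cfsg.Agent.H744.EssRad
import Cfsg.Agent.H752.Mp
import Cfsg.Agent.H569.Strong
set_option linter.all false

/-!
# Generic fusion system lemmas for S5228 (tasks 1337, 1338; helper184)

* `exists_bad` : a subgroup `W ≤ S` which is not strongly closed but is invariant under `Aut_F(S)` is moved by an
  automorphism of an essential subgroup `Q` all of whose larger maps respect `W`;
* `se_of_essential` : the strongly embedded property of the stabilizer of `U ≤ Q` in `Aut_F(Q)`;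
* `core_of_essential` : elements of `N_S(Q)` acting as stability automorphisms lie in `Q`.
-/

set_option autoImplicit false

namespace Cfsg.Agent.H184.FusBad

open Subgroup Cfsg Cfsg.Agent.H752 Cfsg.Agent.H802 Cfsg.Agent.H744

/-- The automorphisms of `Q` preserving membership in `W`. -/
def respects {Ω : Type*} [Group Ω] (Q W : Subgroup Ω) : Subgroup (MulAut Q) where
  carrier := {β | ∀ x : Q, ((x : Ω) ∈ W ↔ ((β x : Q) : Ω) ∈ W)}
  one_mem' := fun x => Iff.rfl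
  mul_mem' := by
    intro a b ha hb x
    exact (hb x).trans (ha (b x))
  inv_mem' := by
    intro a ha x
    have h := ha (a⁻¹ x)
    have h1 : a (a⁻¹ x) = x := a.apply_symm_apply x
    rw [h1] at h
    exact h.symm

theorem exists_bad {Ω : Type*} [Group Ω] {S : Subgroup Ω} [Finite S] {p : ℕ} [Fact p.Prime]
    (hS : IsPGroup p S) {F : FusionSystem S} (hF : F.IsSaturated p) {W : Subgroup Ω} (hWS : W ≤ S)
    (hWtop : ∀ f : Ω → Ω, Mp F S f → ∀ x ∈ W, f x ∈ W) (hW : ¬ F.StronglyClosed W) :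
    ∃ Q : Subgroup Ω, Q < S ∧ F.IsEssential p Q ∧ F.IsFullyAutomized p Q ∧ F.IsReceptive Q ∧
      (∃ f : Ω → Ω, Mp F Q f ∧ (∀ x ∈ Q, f x ∈ Q) ∧ ∃ x ∈ Q, x ∈ W ∧ f x ∉ W) ∧
      (∀ (R : Subgroup Ω) (f : Ω → Ω), Nat.card Q < Nat.card R → Mp F R f →
        ∀ x ∈ R, (x ∈ W ↔ f x ∈ W)) := by
  by_contra hneg
  apply hW
  have key : ∀ (P : Subgroup Ω) (f : Ω → Ω), Mp F P f → ∀ x ∈ P, (x ∈ W ↔ f x ∈ W) := by
    refine mp_induction F hS hF (fun P f => ∀ x ∈ P, (x ∈ W ↔ f x ∈ W)) ?_ ?_ ?_ ?_ ?_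
    · intro P f g _ h he x hx
      rw [he x hx]
      exact h x hx
    · intro P R f _ h hR x hx
      exact h x (hR hx)
    · intro P Q f g _ _ h1 h2 hm x hx
      exact (h1 x hx).trans (h2 (f x) (hm x hx))
    · intro P R f g _ h1 _ h2 y hy
      obtain ⟨x, hx, h3, h4⟩ := h2 y hy
      rw [h4, ← h3]
      exact (h1 x hx).symm
    · intro Q hQa hQr IH α hα f hf
      have hQS : Q ≤ S := hQr.1
      -- reduction to membership of `α` in `respects`
      suffices hα' : α ∈ respects Q W by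
        intro x hx
        rw [hf x hx]
        exact hα' ⟨x, hx⟩
      have hfin : Finite Q := finite_of_le hQS
      -- it is enough that all automorphisms map `Q ∩ W` into `W`
      have hstep : (∀ g : Ω → Ω, Mp F Q g → (∀ x ∈ Q, g x ∈ Q) → ∀ x ∈ Q, x ∈ W → g x ∈ W) →
          α ∈ respects Q W := by
        intro h x
        have h1 : ∀ β ∈ F.autGroup Q, ∀ x : Q, (x : Ω) ∈ W → ((β x : Q) : Ω) ∈ W := by
          intro β hβ x hxW
          have hm : Mp F Q (ex fun x => ((β x : Q) : Ω)) := (mp_iff_autGroup hQS β).1 hβ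
          have h2 := h _ hm (fun y hy => by rw [ex_apply _ hy]; exact (β ⟨y, hy⟩).2) x x.2 hxW
          rwa [ex_coe] at h2
        refine ⟨h1 α hα x, fun h2 => ?_⟩
        have h3 := h1 α⁻¹ ((F.autGroup Q).inv_mem hα) (α x) h2
        have h4 : α⁻¹ (α x) = x := α.symm_apply_apply x
        rwa [h4] at h3
      by_cases hQeq : Q = S
      · subst hQeq
        exact hstep fun g hg _ x _ hxW => hWtop g hg x hxW
      · have hlt : Q < S := lt_of_le_of_ne hQS hQeq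
        have hQn := isFullyNormalized_of_automized_receptive hS hQa hQr
        rcases extendable_dichotomy hS hF hlt hQn _ rfl with ⟨-, hH⟩ | ⟨hess, -⟩
        · have hle : Subgroup.closure {α : MulAut Q | Extends F Q α} ≤ respects Q W := by
            rw [Subgroup.closure_le]
            rintro β ⟨R, hQR, φ, hφ, he⟩ x
            have hRS : R ≤ S := (F.le_of_mem hφ).1
            have hfinR : Finite R := finite_of_le hRS
            have hcard : Nat.card Q < Nat.card R := by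
              refine lt_of_le_of_ne (Subgroup.card_le_of_le hQR.le) fun h => ?_
              exact hQR.ne (Subgroup.eq_of_le_of_card_ge hQR.le h.ge)
            have h1 := IH R (ex φ) (mp_ex hφ) hcard x (hQR.le x.2)
            rw [ex_apply _ (hQR.le x.2)] at h1
            rw [h1]
            have h2 := he x
            rw [← h2]
            rfl
          exact hle (hH ▸ hα)
        · refine hstep fun g hg hgQ x hx hxW => ?_
          by_contra hgx
          exact hneg ⟨Q, hlt, hess, hQa, hQr, ⟨g, hg, hgQ, x, hx, hxW, hgx⟩,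
            fun R f hcard hf => IH R f hf hcard⟩
  exact stronglyClosed_of_mp hWS fun P f hf hP x hx => (key P f hf x hx).1 (hP hx)

/-- An automorphism of the finite group `Q` mapping `Q ∩ U` into `U` respects `U`. -/
theorem mem_respects_of_mapsTo {Ω : Type*} [Group Ω] {Q U : Subgroup Ω} [Finite Q] {β : MulAut Q}
    (h : ∀ x : Q, (x : Ω) ∈ U → ((β x : Q) : Ω) ∈ U) : β ∈ respects Q U := by
  intro x
  refine ⟨h x, fun hx => ?_⟩
  let g : {x : Q // (x : Ω) ∈ U} → {x : Q // (x : Ω) ∈ U} := fun x => ⟨β x.1, h x.1 x.2⟩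
  have hg : Function.Injective g := by
    intro a b hab
    have h1 : β a.1 = β b.1 := congrArg Subtype.val hab
    exact Subtype.ext (β.injective h1)
  obtain ⟨y, hy⟩ := (Finite.injective_iff_surjective.1 hg) ⟨β x, hx⟩
  have h1 : β y.1 = β x := congrArg Subtype.val hy
  rw [← β.injective h1]
  exact y.2

theorem pow_apply_eq_iterate {Ω : Type*} [Group Ω] {Q : Subgroup Ω} {β : MulAut Q} {u : Ω → Ω}
    (h : ∀ (x : Ω) (hx : x ∈ Q), u x = (β ⟨x, hx⟩ : Q)) (n : ℕ) (x : Q) :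
    (((β ^ n) x : Q) : Ω) = u^[n] x := by
  induction n generalizing x with
  | zero => rfl
  | succ n ih =>
    rw [pow_succ, Function.iterate_succ_apply]
    have h1 : (β ^ n * β) x = (β ^ n) (β x) := rfl
    rw [h1, ih (β x), h x x.2]

theorem conj_mem_of_strong {X : Type*} [Group X] [Finite X] {p : ℕ} [Fact p.Prime]
    {Y : Subgroup X} (hY : IsStronglyPEmbedded p Y) {u a b : X} (hu : ∃ n : ℕ, u ^ p ^ n = 1)
    (hu1 : u ≠ 1) (ha : a⁻¹ * u * a ∈ Y) (hb : b⁻¹ * u * b ∈ Y) : b⁻¹ * a ∈ Y := by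
  by_contra hnot
  apply Cfsg.Agent.EvenType.StrongP.inter hY hnot
  have hzm : b⁻¹ * u * b ∈ Y ⊓ Y.map (MulAut.conj (b⁻¹ * a)).toMonoidHom := by
    refine ⟨hb, ⟨a⁻¹ * u * a, ha, ?_⟩⟩
    show b⁻¹ * a * (a⁻¹ * u * a) * (b⁻¹ * a)⁻¹ = b⁻¹ * u * b
    group
  have hz1 : b⁻¹ * u * b ≠ 1 := by
    intro h
    apply hu1
    have h1 : u = b * (b⁻¹ * u * b) * b⁻¹ := by group
    rw [h1, h]
    group
  obtain ⟨n, hn⟩ := hu
  have hzn : (b⁻¹ * u * b) ^ p ^ n = 1 := by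
    have h5 : b⁻¹ * u * b = b⁻¹ * u * (b⁻¹)⁻¹ := by rw [inv_inv]
    rw [h5, conj_pow, hn]
    group
  have hzord : p ∣ orderOf (b⁻¹ * u * b) := by
    obtain ⟨m, -, hm⟩ := (Nat.dvd_prime_pow (Fact.out : p.Prime)).1 (orderOf_dvd_of_pow_eq_one hzn)
    cases m with
    | zero =>
      rw [pow_zero, orderOf_eq_one_iff] at hm
      exact absurd hm hz1
    | succ m =>
      rw [hm, pow_succ]
      exact Dvd.intro_left _ rfl
  have hzle : Subgroup.zpowers (b⁻¹ * u * b) ≤ Y ⊓ Y.map (MulAut.conj (b⁻¹ * a)).toMonoidHom := by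
    rwa [Subgroup.zpowers_le]
  refine hzord.trans ?_
  rw [← Nat.card_zpowers]
  exact Subgroup.card_dvd_of_le hzle

theorem se_of_essential {Ω : Type*} [Group Ω] {S : Subgroup Ω} [Finite S] {p : ℕ} [Fact p.Prime]
    (hS : IsPGroup p S) {F : FusionSystem S} (hF : F.IsSaturated p) {Q U : Subgroup Ω} (hQS : Q < S)
    (hQ : F.IsEssential p Q) (hU : U ≤ Q)
    (hext : ∀ (R : Subgroup Ω) (f : Ω → Ω), Q < R → Mp F R f → (∀ x ∈ Q, f x ∈ Q) →
      ∀ x ∈ U, f x ∈ U)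
    (hmov : ∃ f : Ω → Ω, Mp F Q f ∧ (∀ x ∈ Q, f x ∈ Q) ∧ ∃ x ∈ U, f x ∉ U)
    {u a b : Ω → Ω} (hu : Mp F Q u) (huQ : ∀ x ∈ Q, u x ∈ Q)
    (hup : ∃ k : ℕ, ∀ x ∈ Q, u^[p ^ k] x = x)
    (hui : ¬ ∃ q ∈ Q, ∀ x ∈ Q, u x = q * x * q⁻¹) (ha : Mp F Q a) (haQ : ∀ x ∈ Q, a x ∈ Q)
    (hb : Mp F Q b) (hbQ : ∀ x ∈ Q, b x ∈ Q) (hua : ∀ w ∈ U, ∃ w' ∈ U, u (a w) = a w')
    (hub : ∀ w ∈ U, ∃ w' ∈ U, u (b w) = b w') : ∀ w ∈ U, ∃ w' ∈ U, a w = b w' := by
  have hfin : Finite Q := finite_of_le hQS.le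
  obtain ⟨υ, hυA, hυ⟩ := hu.exists_aut huQ
  obtain ⟨α, hαA, hα⟩ := ha.exists_aut haQ
  obtain ⟨β, hβA, hβ⟩ := hb.exists_aut hbQ
  rcases extendable_dichotomy hS hF hQS hQ.2.1 _ rfl with ⟨hn, -⟩ | ⟨-, hnorm, hSE⟩
  · exact absurd hQ hn
  set H : Subgroup (MulAut Q) := Subgroup.closure {α : MulAut Q | Extends F Q α} with hH
  set A := F.autGroup Q with hA
  set I := (Inn Q).subgroupOf A with hI
  set π := QuotientGroup.mk' I with hπ
  have hπs : Function.Surjective π := QuotientGroup.mk'_surjective I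
  have hπ1 : ∀ a : A, π a = 1 ↔ (a : MulAut Q) ∈ Inn Q := by
    intro a
    have : π a = 1 ↔ a ∈ I := QuotientGroup.eq_one_iff a
    rw [this, hI, Subgroup.mem_subgroupOf]
  -- extendable automorphisms respect `U`
  have hHK : H ≤ respects Q U := by
    rw [hH, Subgroup.closure_le]
    rintro γ ⟨R, hQR, φ, hφ, he⟩
    apply mem_respects_of_mapsTo
    intro x hx
    have hγ : ∀ y : Q, ex φ y = ((γ y : Q) : Ω) := fun y => by
      rw [ex_apply _ (hQR.le y.2), ← he y]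
      rfl
    rw [← hγ]
    exact hext R (ex φ) hQR (mp_ex hφ) (fun y hy => by rw [hγ ⟨y, hy⟩]; exact (γ ⟨y, hy⟩).2) x hx
  set K : Subgroup A := (respects Q U).subgroupOf A with hK
  have hIK : I ≤ K := by
    intro a ha
    exact hHK (Subgroup.subset_closure (extends_of_inn F hQS ha))
  -- membership in the image of `K`
  have hKm : ∀ a : A, π a ∈ K.map π ↔ a ∈ K := by
    intro a
    constructor
    · rintro ⟨c, hc, hca⟩
      have h1 : c⁻¹ * a ∈ I := QuotientGroup.eq.1 hca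
      have h2 := K.mul_mem hc (hIK h1)
      simpa using h2
    · intro ha
      exact ⟨a, ha, rfl⟩
  have hKtop : K.map π ≠ ⊤ := by
    intro htop
    obtain ⟨f, hf, hfQ, x, hx, hfx⟩ := hmov
    obtain ⟨γ, hγA, hγ⟩ := hf.exists_aut hfQ
    have h1 : (⟨γ, hγA⟩ : A) ∈ K := by
      rw [← hKm, htop]
      exact Subgroup.mem_top _
    have h2 : γ ∈ respects Q U := h1
    apply hfx
    rw [hγ x (hU hx)]
    exact (h2 ⟨x, hU hx⟩).1 hx
  have hHKA : (H.subgroupOf A).map π ≤ K.map π :=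
    Subgroup.map_mono fun a ha => hHK ha
  have hSE' : IsStronglyPEmbedded p (K.map π) := Cfsg.Agent.H569.Strong.mono hSE hHKA hKtop
  -- conjugates of `υ` in `K`
  have hconj : ∀ (γ : MulAut Q) (hγA : γ ∈ A) (c : Ω → Ω),
      (∀ (x : Ω) (hx : x ∈ Q), c x = (γ ⟨x, hx⟩ : Q)) →
      (∀ w ∈ U, ∃ w' ∈ U, u (c w) = c w') → γ⁻¹ * υ * γ ∈ respects Q U := by
    intro γ hγA c hc huc
    apply mem_respects_of_mapsTo
    intro x hx
    obtain ⟨w', hw', h1⟩ := huc x hx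
    have hcx : c x ∈ Q := by rw [hc x x.2]; exact (γ x).2
    rw [hυ _ hcx, hc w' (hU hw')] at h1
    have h2 : (⟨c x, hcx⟩ : Q) = γ x := Subtype.ext (hc x x.2)
    rw [h2] at h1
    have h3 : υ (γ x) = γ ⟨w', hU hw'⟩ := Subtype.ext h1
    have h4 : (γ⁻¹ * υ * γ) x = γ⁻¹ (υ (γ x)) := rfl
    have h5 : γ⁻¹ (γ ⟨w', hU hw'⟩) = ⟨w', hU hw'⟩ := γ.symm_apply_apply _
    rw [h4, h3, h5]
    exact hw'
  -- the main claim
  have hmain : β⁻¹ * α ∈ respects Q U := by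
    have h1 : (⟨β, hβA⟩⁻¹ * ⟨υ, hυA⟩ * ⟨β, hβA⟩ : A) ∈ K := hconj β hβA b hβ hub
    have h2 : (⟨α, hαA⟩⁻¹ * ⟨υ, hυA⟩ * ⟨α, hαA⟩ : A) ∈ K := hconj α hαA a hα hua
    obtain ⟨n, hn⟩ := hup
    have hυn : υ ^ p ^ n = 1 := by
      apply MulEquiv.ext
      intro x
      apply Subtype.ext
      rw [pow_apply_eq_iterate hυ, hn x x.2]
      rfl
    have hυn' : (⟨υ, hυA⟩ : A) ^ p ^ n = 1 := Subtype.ext hυn
    have hυ1 : π (⟨υ, hυA⟩ : A) ≠ 1 := by
      intro h10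
      rw [hπ1] at h10
      obtain ⟨q, hq⟩ := h10
      apply hui
      refine ⟨q, q.2, fun x hx => ?_⟩
      rw [hυ x hx]
      have h12 : υ = MulAut.conj q := hq.symm
      rw [h12]
      rfl
    have h3 := conj_mem_of_strong hSE' ⟨n, by rw [← map_pow, hυn', map_one]⟩ hυ1
      (a := π ⟨α, hαA⟩) (b := π ⟨β, hβA⟩)
      (by rw [← map_inv, ← map_mul, ← map_mul]; exact (hKm _).2 h2)
      (by rw [← map_inv, ← map_mul, ← map_mul]; exact (hKm _).2 h1)
    rw [← map_inv, ← map_mul] at h3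
    exact (hKm _).1 h3
  intro w hw
  refine ⟨((β⁻¹ * α) ⟨w, hU hw⟩ : Q), (hmain ⟨w, hU hw⟩).1 hw, ?_⟩
  rw [hα w (hU hw), hβ _ ((β⁻¹ * α) ⟨w, hU hw⟩).2]
  have h1 : (β⁻¹ * α) ⟨w, hU hw⟩ = β⁻¹ (α ⟨w, hU hw⟩) := rfl
  have h2 : β (β⁻¹ (α ⟨w, hU hw⟩)) = α ⟨w, hU hw⟩ := β.apply_symm_apply _
  show ((α ⟨w, hU hw⟩ : Q) : Ω) = ((β ((β⁻¹ * α) ⟨w, hU hw⟩) : Q) : Ω)
  rw [h1, h2]

/-- The automorphisms in `Aut_F(Q)` stabilizing the chain `1 ≤ D ≤ Q`. -/
def stab {Ω : Type*} [Group Ω] (Q D : Subgroup Ω) (A : Subgroup (MulAut Q))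
    (_hA : ∀ β ∈ A, ∀ d : Q, (d : Ω) ∈ D → ((β d : Q) : Ω) ∈ D) : Subgroup A where
  carrier := {β | (∀ x : Q, (((β : MulAut Q) x : Q) : Ω) * (x : Ω)⁻¹ ∈ D) ∧
    ∀ d : Q, (d : Ω) ∈ D → (β : MulAut Q) d = d}
  one_mem' := by
    refine ⟨fun x => ?_, fun d _ => rfl⟩
    show (x : Ω) * (x : Ω)⁻¹ ∈ D
    rw [mul_inv_cancel]
    exact D.one_mem
  mul_mem' := by
    rintro a b ⟨ha1, ha2⟩ ⟨hb1, hb2⟩
    refine ⟨fun x => ?_, fun d hd => ?_⟩
    · have h1 := D.mul_mem (ha1 ((b : MulAut Q) x)) (hb1 x)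
      have h2 : (((a : MulAut Q) ((b : MulAut Q) x) : Q) : Ω) * (((b : MulAut Q) x : Q) : Ω)⁻¹ *
          ((((b : MulAut Q) x : Q) : Ω) * (x : Ω)⁻¹) =
          (((a : MulAut Q) ((b : MulAut Q) x) : Q) : Ω) * (x : Ω)⁻¹ := by group
      rw [h2] at h1
      exact h1
    · show (a : MulAut Q) ((b : MulAut Q) d) = d
      rw [hb2 d hd, ha2 d hd]
  inv_mem' := by
    rintro a ⟨ha1, ha2⟩
    refine ⟨fun x => ?_, fun d hd => ?_⟩
    · have h1 := ha1 ((a : MulAut Q)⁻¹ x)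
      have h2 : (a : MulAut Q) ((a : MulAut Q)⁻¹ x) = x := MulEquiv.apply_symm_apply _ _
      rw [h2] at h1
      have h3 := D.inv_mem h1
      rw [mul_inv_rev, inv_inv] at h3
      exact h3
    · show (a : MulAut Q)⁻¹ d = d
      have h1 : (a : MulAut Q)⁻¹ ((a : MulAut Q) d) = d := MulEquiv.symm_apply_apply _ _
      rw [ha2 d hd] at h1
      exact h1

theorem core_of_essential {Ω : Type*} [Group Ω] {S : Subgroup Ω} [Finite S] {p : ℕ}
    [Fact p.Prime] (hS : IsPGroup p S) {F : FusionSystem S} {Q D : Subgroup Ω}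
    (hQ : F.IsEssential p Q) (_hD : D ≤ Q)
    (hDA : ∀ f : Ω → Ω, Mp F Q f → (∀ x ∈ Q, f x ∈ Q) → ∀ d ∈ D, f d ∈ D) {n : Ω} (hnS : n ∈ S)
    (hn : n ∈ normalizer (Q : Set Ω)) (h1 : ∀ q ∈ Q, n * q * n⁻¹ * q⁻¹ ∈ D)
    (h2 : ∀ d ∈ D, n * d = d * n) : n ∈ Q := by
  have hc : F.IsCentric Q := hQ.1
  have hQS : Q ≤ S := hc.1
  have hfin : Finite Q := finite_of_le hQS
  have hrad := isRadical_of_isEssential hS hQ
  have hA : ∀ β ∈ F.autGroup Q, ∀ d : Q, (d : Ω) ∈ D → ((β d : Q) : Ω) ∈ D := by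
    intro β hβ d hd
    have hm : Mp F Q (ex fun x => ((β x : Q) : Ω)) := (mp_iff_autGroup hQS β).1 hβ
    have h3 := hDA _ hm (fun y hy => by rw [ex_apply _ hy]; exact (β ⟨y, hy⟩).2) d hd
    rwa [ex_coe] at h3
  have hnormal : (stab Q D (F.autGroup Q) hA).Normal := by
    refine ⟨?_⟩
    rintro a ⟨ha1, ha2⟩ g
    refine ⟨fun x => ?_, fun d hd => ?_⟩
    · have h3 := ha1 ((g : MulAut Q)⁻¹ x)
      have h4 : (g : MulAut Q) ((g : MulAut Q)⁻¹ x) = x := MulEquiv.apply_symm_apply _ _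
      have h5 := hA g g.2 ((a : MulAut Q) ((g : MulAut Q)⁻¹ x) * ((g : MulAut Q)⁻¹ x)⁻¹) h3
      rw [map_mul, map_inv, h4] at h5
      exact h5
    · show (g : MulAut Q) ((a : MulAut Q) ((g : MulAut Q)⁻¹ d)) = d
      have h3 := hA (g : MulAut Q)⁻¹ ((F.autGroup Q).inv_mem g.2) d hd
      rw [ha2 _ h3]
      exact MulEquiv.apply_symm_apply _ _
  have hpg : IsPGroup p (stab Q D (F.autGroup Q) hA) := by
    obtain ⟨k, hk⟩ := IsPGroup.iff_card.1 (hS.to_le hQS)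
    rintro ⟨a, ha1, ha2⟩
    refine ⟨k, ?_⟩
    apply Subtype.ext
    apply Subtype.ext
    show (a : MulAut Q) ^ p ^ k = 1
    apply MulEquiv.ext
    intro x
    show ((a : MulAut Q) ^ p ^ k) x = x
    -- `aⁿ x = (a x x⁻¹)ⁿ x`
    have hd : (a : MulAut Q) ((a : MulAut Q) x * x⁻¹) = (a : MulAut Q) x * x⁻¹ :=
      ha2 _ (ha1 x)
    have hit : ∀ m : ℕ, ((a : MulAut Q) ^ m) x = ((a : MulAut Q) x * x⁻¹) ^ m * x := by
      intro m
      induction m with
      | zero => simp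
      | succ m ih =>
        rw [pow_succ']
        show (a : MulAut Q) (((a : MulAut Q) ^ m) x) = _
        rw [ih, map_mul, map_pow, hd, pow_succ]
        group
    rw [hit, ← hk, pow_card_eq_one', one_mul]
  have hle := Cfsg.Agent.Lib.Cores.le_pCore hnormal hpg
  obtain ⟨τ, hτ⟩ := exists_conjAut hn
  have hτA : τ ∈ F.autGroup Q :=
    autInducedBy_le_autGroup F hQS ((mem_autInducedBy_iff S Q τ).2 ⟨n, hnS, hτ⟩)
  have hτs : (⟨τ, hτA⟩ : F.autGroup Q) ∈ stab Q D (F.autGroup Q) hA := by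
    refine ⟨fun x => ?_, fun d hd => ?_⟩
    · show ((τ x : Q) : Ω) * (x : Ω)⁻¹ ∈ D
      rw [hτ x]
      exact h1 x x.2
    · show τ d = d
      apply Subtype.ext
      rw [hτ d, h2 d hd]
      group
  have hin : τ ∈ Inn Q := by
    rw [← hrad.2]
    exact ⟨⟨τ, hτA⟩, hle hτs, rfl⟩
  exact mem_of_inn hc hnS hτ hin

end Cfsg.Agent.H184.FusBad
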